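import Cfsg.Agent.Core.PiNumber
import Mathlib.GroupTheory.PGroup
import Mathlib.GroupTheory.Nilpotent
import Mathlib.GroupTheory.Sylow
import Mathlib.Tactic

/-! # Shift chains of intersections of conjugates -/

set_option linter.style.haveILetI false
set_option linter.unusedSectionVars false

namespace Cfsg.Agent.FGS4.ShiftChain

open Subgroup
open scoped Pointwise commutatorElement

variable {G : Type*} [Group G] [Finite G] (P : Subgroup G) (g : G) (p : ℕ)

/-- Conjugation by `g⁻¹`. -/
def sh : G ≃* G := MulAut.conj g⁻¹

theorem smul_eq_map (x : G) (H : Subgroup G) : MulAut.conj x • H = H.map (MulAut.conj x).toMonoidHom := rfl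

/-- `P ∩ P^g ∩ … ∩ P^(g^k)`. -/
def D : ℕ → Subgroup G
  | 0 => P
  | k + 1 => D k ⊓ (D k).map (sh g).toMonoidHom

theorem D_succ_le (k : ℕ) : D P g (k + 1) ≤ D P g k := inf_le_left

theorem D_le (k : ℕ) : D P g k ≤ P := by
  induction k with
  | zero => exact le_rfl
  | succ k ih => exact (D_succ_le P g k).trans ih

variable {P g p}

theorem D_succ_eq (k : ℕ) : D P g (k + 1) = P ⊓ (D P g k).map (sh g).toMonoidHom := by
  induction k with
  | zero => rfl
  | succ k ih =>
    refine le_antisymm (inf_le_inf_right _ (D_le P g (k + 1))) ?_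
    refine le_inf ?_ inf_le_right
    conv_rhs => rw [ih]
    exact le_inf inf_le_left (inf_le_right.trans (map_mono (D_succ_le P g k)))

theorem le_of_prime_relIndex {p : ℕ} (hp : p.Prime) {A B H : Subgroup G} (hA : A ≤ H) (hB : B ≤ H)
    (hBA : ¬ B ≤ A) (hi : A.relIndex H = p) : A ⊔ B = H := by
  refine le_antisymm (sup_le hA hB) ?_
  have h1 := relIndex_mul_relIndex A (A ⊔ B) H le_sup_left (sup_le hA hB)
  rw [hi] at h1
  rcases hp.eq_one_or_self_of_dvd _ (Dvd.intro _ h1) with h | h
  · exact absurd (le_sup_right.trans (relIndex_eq_one.1 h)) hBA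
  · rw [h] at h1
    exact relIndex_eq_one.1 (Nat.eq_of_mul_eq_mul_left hp.pos (h1.trans (mul_one p).symm))

/-- The data: `P ∩ P^g` is normal of index `p` in `P^g`, and `g` normalizes no nontrivial normal
subgroup of `P`. -/
structure Data (P : Subgroup G) (g : G) (p : ℕ) : Prop where
  prime : p.Prime
  normal : ((P ⊓ P.map (sh g).toMonoidHom).subgroupOf (P.map (sh g).toMonoidHom)).Normal
  index : (P ⊓ P.map (sh g).toMonoidHom).relIndex (P.map (sh g).toMonoidHom) = p
  core : ∀ Q : Subgroup G, Q ≤ P → (Q.subgroupOf P).Normal → Q.map (sh g).toMonoidHom = Q → Q = ⊥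

theorem D_step (h : Data P g p) (k : ℕ) :
    ((D P g (k + 1)).subgroupOf ((D P g k).map (sh g).toMonoidHom)).Normal ∧
      (D P g (k + 1)).relIndex ((D P g k).map (sh g).toMonoidHom) ∣ p := by
  set S := (D P g k).map (sh g).toMonoidHom
  set Q := P.map (sh g).toMonoidHom with hQ
  have hSQ : S ≤ Q := map_mono (D_le P g k)
  have heq : D P g (k + 1) = (P ⊓ Q) ⊓ S := by
    rw [D_succ_eq, inf_assoc, inf_eq_right.2 hSQ]
  haveI := h.normal
  rw [heq]
  constructor
  · have h1 : ((P ⊓ Q) ⊓ S).subgroupOf S = ((P ⊓ Q).subgroupOf Q).comap (Subgroup.inclusion hSQ) := by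
      ext x; have := hSQ x.2; simp [mem_subgroupOf, this]
    rw [h1]; exact Normal.comap h.normal _
  · rw [inf_relIndex_right, ← relIndex_subgroupOf hSQ (H := P ⊓ Q), ← h.index]
    exact relIndex_dvd_index_of_normal _ _

theorem card_shift (H : Subgroup G) : Nat.card (H.map (sh g).toMonoidHom) = Nat.card H :=
  card_map_of_injective (sh g).injective

theorem D_normalizes (h : Data P g p) {m : ℕ} (hm : (D P g m).map (sh g).toMonoidHom = D P g m)
    (hne : ∀ k < m, (D P g k).map (sh g).toMonoidHom ≠ D P g k) :
    ∀ d k : ℕ, k + d = m → D P g k ≤ normalizer (D P g m : Set G) := by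
  have hfix : (normalizer (D P g m : Set G)).map (sh g).toMonoidHom = normalizer (D P g m : Set G) := by
    refine eq_of_le_of_card_ge ?_ (card_shift _).ge
    exact (le_normalizer_map (sh g).toMonoidHom).trans (by rw [hm])
  intro d
  induction d with
  | zero => intro k hk; rw [add_zero] at hk; rw [hk]; exact le_normalizer
  | succ d ih =>
    intro k hk
    have hlt : k < m := by omega
    have h1 := ih (k + 1) (by omega)
    rcases h.prime.eq_one_or_self_of_dvd _ (D_step h k).2 with he | he
    · exfalso
      refine hne k hlt (eq_of_le_of_card_ge ?_ (card_shift _).ge)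
      exact (relIndex_eq_one.1 he).trans (D_succ_le P g k)
    · by_cases hke : k + 1 = m
      · -- the last step is normal
        have hn := (D_step h k).1
        rw [hke, normal_subgroupOf_iff_le_normalizer (by
          rw [← hm, ← hke]; exact map_mono (D_succ_le P g k))] at hn
        intro x hx
        have h2 : sh g x ∈ normalizer (D P g m : Set G) := hn (mem_map_of_mem _ hx)
        rw [← hfix] at h2
        obtain ⟨y, hy, hyx⟩ := h2
        exact (sh g).injective hyx ▸ hy
      · intro x hx
        have hb : (D P g (k + 1)).map (sh g).toMonoidHom ≤ (D P g k).map (sh g).toMonoidHom :=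
          map_mono (D_succ_le P g k)
        have hne' : ¬ (D P g (k + 1)).map (sh g).toMonoidHom ≤ D P g (k + 1) := fun hle =>
          hne (k + 1) (by omega) (eq_of_le_of_card_ge hle (card_shift _).ge)
        have hj := le_of_prime_relIndex h.prime inf_le_right hb hne' he
        have h2 : sh g x ∈ normalizer (D P g m : Set G) := by
          have h3 : (D P g (k + 1)) ⊔ (D P g (k + 1)).map (sh g).toMonoidHom ≤ normalizer (D P g m : Set G) :=
            sup_le h1 ((map_mono h1).trans hfix.le)
          exact h3 (hj.ge (mem_map_of_mem _ hx))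
        rw [← hfix] at h2
        obtain ⟨y, hy, hyx⟩ := h2
        exact (sh g).injective hyx ▸ hy

theorem exists_length (h : Data P g p) :
    ∃ m : ℕ, 1 ≤ m ∧ ∀ k, k ≤ m → Nat.card (D P g k) = p ^ (m - k) := by
  classical
  have hex : ∃ k, (D P g k).map (sh g).toMonoidHom = D P g k := by
    by_contra hno
    push Not at hno
    have hlt : ∀ k, Nat.card (D P g k) + k ≤ Nat.card P := by
      intro k
      induction k with
      | zero => exact le_rfl
      | succ k ih =>
        have h1 : D P g (k + 1) < D P g k := by
          refine lt_of_le_of_ne (D_succ_le P g k) fun e => hno k ?_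
          exact (eq_of_le_of_card_ge (e.ge.trans inf_le_right) (card_shift _).le).symm
        have h2 : Nat.card (D P g (k + 1)) < Nat.card (D P g k) :=
          Set.Finite.card_lt_card (Set.toFinite _) h1
        omega
    have := hlt (Nat.card P)
    have : 0 < Nat.card (D P g (Nat.card P)) := Nat.card_pos
    omega
  set m := Nat.find hex with hmdef
  have hm := Nat.find_spec hex
  have hne : ∀ k < m, (D P g k).map (sh g).toMonoidHom ≠ D P g k := fun k hk => Nat.find_min hex hk
  have hbot : D P g m = ⊥ := by
    refine h.core _ (D_le P g m) ?_ hm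
    rw [normal_subgroupOf_iff_le_normalizer (D_le P g m)]
    exact D_normalizes h hm hne m 0 (zero_add m)
  have hstep : ∀ k < m, Nat.card (D P g k) = Nat.card (D P g (k + 1)) * p := by
    intro k hk
    rcases h.prime.eq_one_or_self_of_dvd _ (D_step h k).2 with he | he
    · exact absurd (eq_of_le_of_card_ge ((relIndex_eq_one.1 he).trans (D_succ_le P g k)) (card_shift _).ge)
        (hne k hk)
    · have h1 := (D P g (k + 1)).subgroupOf ((D P g k).map (sh g).toMonoidHom) |>.card_mul_index
      have hle : D P g (k + 1) ≤ (D P g k).map (sh g).toMonoidHom := inf_le_right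
      rw [Nat.card_congr (subgroupOfEquivOfLe hle).toEquiv, card_shift] at h1
      rw [← h1, ← he]; rfl
  refine ⟨m, ?_, fun k hk => ?_⟩
  · by_contra hm0
    have h0 : m = 0 := by omega
    have hP : P = ⊥ := by rw [h0] at hbot; exact hbot
    have := h.index
    rw [hP, Subgroup.map_bot, inf_idem, relIndex_self] at this
    exact h.prime.one_lt.ne this
  · obtain ⟨d, hd⟩ := Nat.le.dest hk
    rw [show m - k = d by omega]
    clear hk
    induction d generalizing k with
    | zero => rw [add_zero] at hd; rw [hd, hbot, card_bot, pow_zero]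
    | succ d ih => rw [hstep k (by omega), ih (k + 1) (by omega), pow_succ]

end Cfsg.Agent.FGS4.ShiftChain
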