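import Cfsg.Agent.FGS4.ShiftChain.Main

/-! # The order bound -/

set_option linter.style.haveILetI false

namespace Cfsg.Agent.FGS4.ShiftChain

open Subgroup
open scoped Pointwise

theorem sh_pow {G : Type*} [Group G] (g : G) (i : ℕ) : (sh g : MulAut G) ^ i = MulAut.conj (g ^ i)⁻¹ := by
  show (MulAut.conj g⁻¹) ^ i = _
  rw [← map_pow, inv_pow]

theorem bound {G : Type*} [Group G] [Finite G] (P : Subgroup G) (g : G) (p : ℕ) (hp : p.Prime)
    (hN : ((P ⊓ MulAut.conj g⁻¹ • P).subgroupOf (MulAut.conj g⁻¹ • P)).Normal)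
    (hidx : (P ⊓ MulAut.conj g⁻¹ • P).relIndex (MulAut.conj g⁻¹ • P) = p)
    (n : ℕ) (hn : 1 ≤ n) (K : Subgroup G) (hK : K = ⨆ i ∈ Finset.range (n + 1), MulAut.conj (g ^ i)⁻¹ • P)
    (h1 : ∀ Q : Subgroup G, Q ≤ P → (Q.subgroupOf P).Normal → MulAut.conj g • Q = Q → Q = ⊥)
    (h2 : P ⊓ (Subgroup.center K).map K.subtype = ⊥) :
    ∃ t : ℕ, Nat.card P = p ^ t ∧ 1 ≤ t ∧ t ≤ 3 * n ∧ t ≠ 3 * n - 1 := by
  have hd : Data P g p := ⟨hp, hN, hidx, fun Q hQ hQn hQf => h1 Q hQ hQn (by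
    have hf : MulAut.conj g⁻¹ • Q = Q := hQf
    conv_lhs => rw [← hf]
    rw [← mul_smul, ← map_mul, mul_inv_cancel, map_one, one_smul])⟩
  obtain ⟨m, s, x, hm, hs, hP, hcard⟩ := exists_orbit hd
  have hPK : P ≤ K := by
    rw [hK]
    refine le_trans (le_of_eq ?_) (le_iSup₂_of_le 0 (Finset.mem_range.2 (Nat.succ_pos n)) le_rfl)
    rw [pow_zero, inv_one, map_one, one_smul]
  have hKJ : K ≤ J s x 0 (m + n) := by
    rw [hK]
    refine iSup₂_le fun i hi => ?_
    have hconj : MulAut.conj (g ^ i)⁻¹ • P = P.map ((s ^ (i : ℤ) : MulAut G)).toMonoidHom := by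
      rw [zpow_natCast, hs, sh_pow]; rfl
    rw [hconj, hP, map_J]
    have := Finset.mem_range.1 hi
    exact J_mono (by omega) (by omega)
  have hb : m ≤ 3 * n ∧ m ≠ 3 * n - 1 := by
    refine orbit_bound hp hm hn hcard fun j hj0 hj => ?_
    by_contra hall
    push Not at hall
    have hjP : pt s x j ∈ P := hP ▸ pt_mem hj0 (by omega)
    have hcK : ∀ c ∈ K, pt s x j * c = c * pt s x j := by
      intro c hc
      have hle : J s x 0 (m + n) ≤ centralizer {pt s x j} := by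
        rw [J, closure_le]
        rintro _ ⟨k, ⟨hk0, hk⟩, rfl⟩
        rw [SetLike.mem_coe, mem_centralizer_singleton_iff]
        exact (hall k hk0 (by omega)).eq.symm
      exact (mem_centralizer_singleton_iff.1 (hle (hKJ hc))).symm
    have hmem : pt s x j ∈ P ⊓ (Subgroup.center K).map K.subtype :=
      mem_inf.2 ⟨hjP, ⟨⟨pt s x j, hPK hjP⟩, mem_center_iff.2 (fun c => Subtype.ext (hcK c c.2).symm), rfl⟩⟩
    rw [h2, mem_bot] at hmem
    have hc := hcard j 1 hm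
    rw [J_one, hmem, zpowers_one_eq_bot, Subgroup.card_bot, pow_one] at hc
    exact hp.one_lt.ne hc
  exact ⟨m, by rw [hP, hcard 0 m le_rfl], hm, hb.1, hb.2⟩

end Cfsg.Agent.FGS4.ShiftChain
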