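import Cfsg.Agent.FGS4.ShiftChain.Basic
import Cfsg.Agent.PLocal.ElemAb

/-! # Sims' commutator argument and the bound `3 n` -/

set_option linter.style.haveILetI false
set_option linter.unusedSectionVars false

namespace Cfsg.Agent.FGS4.ShiftChain

open Subgroup
open scoped Pointwise commutatorElement

variable {G : Type*} [Group G] [Finite G] {P : Subgroup G} {g : G} {p : ℕ}

/-- A two-sided orbit of a point under an automorphism. -/
def pt (s : MulAut G) (x : G) (i : ℤ) : G := (s ^ i) x

/-- The subgroup generated by an interval of the orbit. -/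
def J (s : MulAut G) (x : G) (i : ℤ) (l : ℕ) : Subgroup G :=
  closure (pt s x '' {j | i ≤ j ∧ j < i + l})

variable {s : MulAut G} {x : G}

theorem pt_mem {i j : ℤ} {l : ℕ} (h1 : i ≤ j) (h2 : j < i + l) : pt s x j ∈ J s x i l :=
  Subgroup.subset_closure ⟨j, ⟨h1, h2⟩, rfl⟩

theorem J_mono {i i' : ℤ} {l l' : ℕ} (h1 : i ≤ i') (h2 : i' + l' ≤ i + l) : J s x i' l' ≤ J s x i l := by
  rw [J, closure_le]
  rintro _ ⟨j, ⟨hj1, hj2⟩, rfl⟩
  exact pt_mem (by omega) (by omega)

theorem J_sup {i i' : ℤ} {l l' L : ℕ} (h1 : i ≤ i') (h2 : i' ≤ i + l) (h3 : i + l ≤ i' + l')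
    (hL : i' + l' = i + L) : J s x i l ⊔ J s x i' l' = J s x i L := by
  refine le_antisymm (sup_le (J_mono le_rfl (by omega)) (J_mono (by omega) (by omega))) ?_
  conv_lhs => rw [J]
  rw [closure_le]
  rintro _ ⟨j, ⟨hj1, hj2⟩, rfl⟩
  by_cases hj : j < i + l
  · exact mem_sup_left (pt_mem hj1 hj)
  · exact mem_sup_right (pt_mem (by omega) (by omega))

theorem J_zero (i : ℤ) : J s x i 0 = ⊥ := by
  rw [J, closure_eq_bot_iff]
  rintro _ ⟨j, hj, rfl⟩
  obtain ⟨h1, h2⟩ := hj
  omega

theorem J_one (i : ℤ) : J s x i 1 = zpowers (pt s x i) := by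
  refine le_antisymm ?_ (zpowers_le.2 (pt_mem le_rfl (by omega)))
  rw [J, closure_le]
  rintro _ ⟨j, ⟨h1, h2⟩, rfl⟩
  rw [show j = i by omega]
  exact mem_zpowers _

theorem pt_shift (n i : ℤ) : (s ^ n : MulAut G) (pt s x i) = pt s x (i + n) := by
  rw [pt, pt, ← MulAut.mul_apply, ← zpow_add, add_comm]

theorem map_J (n i : ℤ) (l : ℕ) : (J s x i l).map (s ^ n : MulAut G).toMonoidHom = J s x (i + n) l := by
  rw [J, J, MonoidHom.map_closure]
  congr 1
  ext y
  constructor
  · rintro ⟨_, ⟨j, ⟨h1, h2⟩, rfl⟩, rfl⟩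
    exact ⟨j + n, ⟨by omega, by omega⟩, (pt_shift n j).symm⟩
  · rintro ⟨j, ⟨h1, h2⟩, rfl⟩
    refine ⟨_, ⟨j - n, ⟨by omega, by omega⟩, rfl⟩, ?_⟩
    show (s ^ n : MulAut G) (pt s x (j - n)) = pt s x j
    rw [pt_shift, sub_add_cancel]

theorem map_J_one (i : ℤ) (l : ℕ) : (J s x i l).map (s : MulAut G).toMonoidHom = J s x (i + 1) l := by
  have := map_J (s := s) (x := x) 1 i l
  rwa [zpow_one] at this

theorem exists_orbit (h : Data P g p) : ∃ (m : ℕ) (s : MulAut G) (x : G), 1 ≤ m ∧ s = sh g ∧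
    P = J s x 0 m ∧ ∀ i l, l ≤ m → Nat.card (J s x i l) = p ^ l := by
  obtain ⟨m, hm, hc⟩ := exists_length h
  have hc1 := hc (m - 1) (by omega)
  rw [show m - (m - 1) = 1 by omega, pow_one] at hc1
  haveI := Fact.mk h.prime
  haveI := isCyclic_of_prime_card hc1
  obtain ⟨x₀, hx₀⟩ := Subgroup.isCyclic_iff_exists_zpowers_eq_top (D P g (m - 1)) |>.1 inferInstance
  let s : MulAut G := sh g
  set x := (s ^ (-((m : ℤ) - 1))) x₀ with hx
  have hD : ∀ d k : ℕ, k + d = m - 1 → D P g k = J s x k (m - k) := by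
    intro d
    induction d with
    | zero =>
      intro k hk
      rw [add_zero] at hk
      subst hk
      rw [show m - (m - 1) = 1 by omega, J_one, ← hx₀, pt, hx, ← MulAut.mul_apply, ← zpow_add,
        show ((m - 1 : ℕ) : ℤ) + -((m : ℤ) - 1) = 0 by omega, zpow_zero]
      rfl
    | succ d ih =>
      intro k hk
      have h1 := ih (k + 1) (by omega)
      have hi : (D P g (k + 1)).relIndex ((D P g k).map (sh g).toMonoidHom) = p := by
        rcases h.prime.eq_one_or_self_of_dvd _ (D_step h k).2 with he | he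
        · exfalso
          have h2 := card_le_of_le (relIndex_eq_one.1 he)
          rw [card_shift, hc k (by omega), hc (k + 1) (by omega)] at h2
          have := (Nat.pow_le_pow_iff_right h.prime.one_lt).1 h2
          omega
        · exact he
      have hne : ¬ (D P g (k + 1)).map (sh g).toMonoidHom ≤ D P g (k + 1) := by
        intro hle
        have heq := eq_of_le_of_card_ge hle (card_shift _).ge
        have h2 : D P g (k + 2) = D P g (k + 1) := by
          show D P g (k + 1) ⊓ (D P g (k + 1)).map (sh g).toMonoidHom = _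
          rw [heq, inf_idem]
        have h3 := hc (k + 2) (by omega)
        rw [h2, hc (k + 1) (by omega)] at h3
        have := Nat.pow_right_injective h.prime.two_le h3
        omega
      have hj := le_of_prime_relIndex h.prime
        (show D P g (k + 1) ≤ (D P g k).map (sh g).toMonoidHom from inf_le_right) (map_mono (D_succ_le P g k)) hne hi
      have hs : (sh g).toMonoidHom = (s : MulAut G).toMonoidHom := rfl
      rw [hs, h1, map_J_one, J_sup (L := m - k) (by omega) (by omega) (by omega) (by omega)] at hj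
      apply map_injective (f := (s : MulAut G).toMonoidHom) (MulEquiv.injective s)
      rw [map_J_one, ← hj, Nat.cast_add, Nat.cast_one]
  refine ⟨m, s, x, hm, rfl, ?_, fun i l hl => ?_⟩
  · have := hD (m - 1) 0 (by omega)
    rw [Nat.sub_zero, Nat.cast_zero] at this
    exact this
  · rcases Nat.eq_zero_or_pos l with rfl | hl0
    · rw [J_zero, Subgroup.card_bot, pow_zero]
    · have h1 := hD (l - 1) (m - l) (by omega)
      rw [show m - (m - l) = l by omega] at h1
      have h2 := map_J (s := s) (x := x) (i - ((m - l : ℕ) : ℤ)) ((m - l : ℕ) : ℤ) l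
      rw [add_sub_cancel, ← h1] at h2
      rw [← h2, card_map_of_injective (f := ((s ^ _ : MulAut G) : MulAut G).toMonoidHom) (MulEquiv.injective _),
        hc _ (by omega), show m - (m - l) = l by omega]

theorem commute_of_shift {i j k : ℤ} (hc : Commute (pt s x i) (pt s x j)) :
    Commute (pt s x (i + k)) (pt s x (j + k)) := by
  rw [← pt_shift, ← pt_shift]
  exact hc.map (s ^ k : MulAut G).toMonoidHom

theorem normal_interval {m l : ℕ} {i i' : ℤ} (hp : p.Prime) (hcard : ∀ i l, l ≤ m → Nat.card (J s x i l) = p ^ l)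
    (hl : l + 1 ≤ m) (h1 : i ≤ i') (h2 : i' + l ≤ i + (l + 1 : ℕ)) :
    J s x i (l + 1) ≤ normalizer (J s x i' l : Set G) := by
  haveI := Fact.mk hp
  have hle : J s x i' l ≤ J s x i (l + 1) := J_mono h1 h2
  haveI : Group.IsNilpotent (J s x i (l + 1)) := (IsPGroup.of_card (hcard i (l + 1) hl)).isNilpotent
  have hidx : ((J s x i' l).subgroupOf (J s x i (l + 1))).index = p := by
    have h3 := (J s x i' l).subgroupOf (J s x i (l + 1)) |>.card_mul_index
    rw [Nat.card_congr (subgroupOfEquivOfLe hle).toEquiv, hcard i' l (by omega), hcard i (l + 1) hl, pow_succ] at h3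
    exact Nat.eq_of_mul_eq_mul_left (pow_pos hp.pos l) h3
  have hn : ((J s x i' l).subgroupOf (J s x i (l + 1))).Normal := by
    refine NormalizerCondition.normal_of_coatom _ Group.normalizerCondition_of_isNilpotent ⟨?_, fun K hK => ?_⟩
    · intro e; rw [e, index_top] at hidx; exact hp.one_lt.ne hidx
    · obtain ⟨y, hyK, hy⟩ := SetLike.exists_of_lt hK
      have := le_of_prime_relIndex hp (le_top : (J s x i' l).subgroupOf (J s x i (l + 1)) ≤ ⊤)
        (le_top : K ≤ ⊤) (fun h => hy (h hyK)) (by rwa [relIndex_top_right])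
      rw [sup_eq_right.2 hK.le] at this
      exact this
  exact (normal_subgroupOf_iff_le_normalizer hle).1 hn

theorem conj_comm {X Y A u : G} (hXu : Commute A u) (hzA : Y * A * Y⁻¹ = A) (hz : Y * X * Y⁻¹ = X * u) :
    Y * ⁅X, A⁆ * Y⁻¹ = ⁅X, A⁆ := by
  have h2 : u * A * u⁻¹ = A := by rw [← hXu.eq, mul_inv_cancel_right]
  calc Y * ⁅X, A⁆ * Y⁻¹ = (Y * X * Y⁻¹) * (Y * A * Y⁻¹) * (Y * X * Y⁻¹)⁻¹ * (Y * A * Y⁻¹)⁻¹ := by
        rw [commutatorElement_def]; group
    _ = X * (u * A * u⁻¹) * X⁻¹ * A⁻¹ := by rw [hz, hzA]; group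
    _ = ⁅X, A⁆ := by rw [h2, commutatorElement_def]

/-- The commuting distance `r` and the support `[a, b]` of the first nontrivial commutator. -/
theorem orbit_structure {m n : ℕ} (hp : p.Prime) (hm : 1 ≤ m)
    (hcard : ∀ i l, l ≤ m → Nat.card (J s x i l) = p ^ l)
    (hcen : ∀ j : ℤ, 0 ≤ j → j < m → ∃ k : ℤ, 0 ≤ k ∧ k < m + n ∧ ¬ Commute (pt s x j) (pt s x k)) :
    ∃ r : ℕ, (∀ a b : ℤ, b ≤ a + r → a ≤ b + r → Commute (pt s x a) (pt s x b)) ∧ (m ≤ n ∨
      (r + 2 ≤ m ∧ 2 * r + 2 ≤ m + n ∧ ¬ Commute (pt s x 0) (pt s x ((r : ℤ) + 1)) ∧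
        ∃ a b : ℕ, 1 ≤ a ∧ a ≤ b ∧ b ≤ r ∧ m ≤ a + r + 1 ∧ m + b ≤ 2 * r + 2 ∧
          ⁅pt s x 0, pt s x ((r : ℤ) + 1)⁆ ∈ J s x a (r + 1 - a) ∧
          ⁅pt s x 0, pt s x ((r : ℤ) + 1)⁆ ∈ J s x 1 b)) := by
  classical
  -- the largest commuting distance
  let C : ℕ → Prop := fun r => ∀ a b : ℤ, a ≤ b → b ≤ a + r → Commute (pt s x a) (pt s x b)
  have hC0 : C 0 := fun a b h1 h2 => by
    rw [show b = a by omega]
  set r := Nat.findGreatest C (m - 1) with hr
  have hrm : r ≤ m - 1 := Nat.findGreatest_le _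
  have hCr : C r := Nat.findGreatest_spec (P := C) (Nat.zero_le _) hC0
  have hC : ∀ a b : ℤ, b ≤ a + r → a ≤ b + r → Commute (pt s x a) (pt s x b) := by
    intro a b h1 h2
    rcases le_total a b with h | h
    · exact hCr a b h h1
    · exact (hCr b a h h2).symm
  refine ⟨r, hC, ?_⟩
  by_cases hrtop : r = m - 1
  · left
    by_contra hlt
    obtain ⟨k, hk0, hk, hnc⟩ := hcen (m - 1 : ℕ) (by omega) (by omega)
    exact hnc (hC _ _ (by omega) (by omega))
  right
  have hmid : 2 * r + 2 ≤ m + n := by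
    by_contra hlt
    obtain ⟨k, hk0, hk, hnc⟩ := hcen r (by omega) (by omega)
    exact hnc (hC _ _ (by omega) (by omega))
  have hR : ¬ C (r + 1) := Nat.findGreatest_is_greatest (P := C) (n := m - 1) (k := r + 1) (by omega) (by omega)
  have hnc : ¬ Commute (pt s x 0) (pt s x ((r : ℤ) + 1)) := by
    intro hc
    refine hR fun a b h1 h2 => ?_
    by_cases hb : b ≤ a + r
    · exact hC a b hb (by omega)
    · have := commute_of_shift (k := a) hc
      rwa [zero_add, show (r : ℤ) + 1 + a = b by omega] at this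
  have comm_mem : ∀ (c : ℤ) (i : ℤ) (l : ℕ), (∀ j, i ≤ j → j < i + l → Commute (pt s x c) (pt s x j)) →
      ∀ u ∈ J s x i l, Commute (pt s x c) u := by
    intro c i l h u hu
    induction hu using Subgroup.closure_induction with
    | mem u hu => obtain ⟨j, ⟨h1, h2⟩, rfl⟩ := hu; exact h j h1 h2
    | one => exact Commute.one_right _
    | mul u v _ _ ihu ihv => exact ihu.mul_right ihv
    | inv u _ ih => exact ih.inv_right
  set w := ⁅pt s x 0, pt s x ((r : ℤ) + 1)⁆ with hw
  have hw1 : w ≠ 1 := fun h => hnc (commutatorElement_eq_one_iff_mul_comm.1 h)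
  have hr2 : r + 2 ≤ m := by omega
  -- the commutator lies in the middle interval
  have hwmem : w ∈ J s x 1 r := by
    have h0 : pt s x 0 ∈ J s x 0 (r + 2) := pt_mem le_rfl (by omega)
    have h1 : pt s x ((r : ℤ) + 1) ∈ J s x 0 (r + 2) := pt_mem (by omega) (by omega)
    have hl : w ∈ J s x 0 (r + 1) := by
      have hN := normal_interval (l := r + 1) (i := 0) (i' := 0) hp hcard hr2 le_rfl (by omega)
      have h2 : pt s x ((r : ℤ) + 1) * (pt s x 0)⁻¹ * (pt s x ((r : ℤ) + 1))⁻¹ ∈ J s x 0 (r + 1) :=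
        (mem_normalizer_iff.1 (hN h1) _).1 (inv_mem (pt_mem le_rfl (by omega)))
      have h3 := mul_mem (pt_mem (s := s) (x := x) (i := 0) (l := r + 1) le_rfl (by omega)) h2
      rwa [← mul_assoc, ← mul_assoc] at h3
    have hrr : w ∈ J s x 1 (r + 1) := by
      have hN := normal_interval (l := r + 1) (i := 0) (i' := 1) hp hcard hr2 (by omega) (by omega)
      have h2 : pt s x 0 * pt s x ((r : ℤ) + 1) * (pt s x 0)⁻¹ ∈ J s x 1 (r + 1) :=
        (mem_normalizer_iff.1 (hN h0) _).1 (pt_mem (by omega) (by omega))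
      exact mul_mem h2 (inv_mem (pt_mem (by omega) (by omega)))
    have hinf : J s x 0 (r + 1) ⊓ J s x 1 (r + 1) = J s x 1 r := by
      refine (eq_of_le_of_card_ge (le_inf (J_mono (by omega) (by omega)) (J_mono le_rfl (by omega))) ?_).symm
      rw [hcard 1 r (by omega)]
      obtain ⟨j, hj, hjc⟩ := (Nat.dvd_prime_pow hp).1 (hcard 0 (r + 1) (by omega) ▸
        card_dvd_of_le (inf_le_left (a := J s x 0 (r + 1)) (b := J s x 1 (r + 1))))
      rw [hjc]
      refine Nat.pow_le_pow_right hp.pos ?_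
      by_contra hlt
      have h4 := eq_of_le_of_card_ge (inf_le_left (a := J s x 0 (r + 1)) (b := J s x 1 (r + 1))) (by
        rw [hjc, hcard 0 (r + 1) (by omega)]; exact Nat.pow_le_pow_right hp.pos (by omega))
      have h5 : J s x 0 (r + 2) ≤ J s x 1 (r + 1) := by
        rw [← J_sup (s := s) (x := x) (i := 0) (i' := 1) (l := r + 1) (l' := r + 1) (L := r + 2) (by omega)
          (by omega) (by omega) (by omega)]
        exact sup_le (inf_eq_left.1 h4) le_rfl
      have h6 := card_le_of_le h5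
      rw [hcard 0 (r + 2) hr2, hcard 1 (r + 1) (by omega)] at h6
      have := (Nat.pow_le_pow_iff_right hp.one_lt).1 h6
      omega
    exact hinf ▸ mem_inf.2 ⟨hl, hrr⟩
  -- the first index occurring in `w`
  obtain ⟨a, ha1, hwa, hwa'⟩ : ∃ a : ℕ, 1 ≤ a ∧ w ∈ J s x a (r + 1 - a) ∧ w ∉ J s x ((a : ℤ) + 1) (r - a) := by
    set T : ℕ → Prop := fun a => w ∈ J s x a (r + 1 - a) with hT
    have h1 : T 1 := by
      show w ∈ J s x ((1 : ℕ) : ℤ) (r + 1 - 1)
      rw [Nat.cast_one, Nat.add_sub_cancel]; exact hwmem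
    refine ⟨Nat.findGreatest T (r + 1), Nat.le_findGreatest (by omega) h1,
      Nat.findGreatest_spec (P := T) (m := 1) (by omega) h1, fun hmem => ?_⟩
    have hle : Nat.findGreatest T (r + 1) ≤ r + 1 := Nat.findGreatest_le _
    rcases Nat.lt_or_eq_of_le hle with hlt | heq
    · refine Nat.findGreatest_is_greatest (P := T) (n := r + 1) (k := Nat.findGreatest T (r + 1) + 1) (by omega) hlt ?_
      show w ∈ J s x _ _
      rw [Nat.cast_add, Nat.cast_one, Nat.add_sub_add_right]; exact hmem
    · rw [heq, show r - (r + 1) = 0 by omega, J_zero, mem_bot] at hmem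
      exact hw1 hmem
  have har : a ≤ r := by
    by_contra hlt
    rw [show r + 1 - a = 0 by omega, J_zero, mem_bot] at hwa
    exact hw1 hwa
  -- the last index occurring in `w`
  obtain ⟨b, hbr, hwb, hwb'⟩ : ∃ b : ℕ, b ≤ r ∧ w ∈ J s x 1 b ∧ w ∉ J s x 1 (b - 1) := by
    have hex : ∃ b, w ∈ J s x 1 b := ⟨r, hwmem⟩
    refine ⟨Nat.find hex, Nat.find_le hwmem, Nat.find_spec hex, fun hmem => ?_⟩
    have h1 := Nat.find_le (h := hex) hmem
    have h0 : Nat.find hex ≠ 0 := by
      intro h0
      have h2 := Nat.find_spec hex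
      rw [h0, J_zero, mem_bot] at h2
      exact hw1 h2
    omega
  have hb0 : 1 ≤ b := by
    by_contra h0
    rw [show b = 0 by omega, J_zero, mem_bot] at hwb
    exact hw1 hwb
  haveI := Fact.mk hp
  -- a generator of order `p` commutes with whatever a nontrivial power commutes with
  have gen : ∀ (i : ℤ) (e z : G), e ∈ zpowers (pt s x i) → e ≠ 1 → Commute z e → Commute z (pt s x i) := by
    intro i e z he he1 hc
    have hci : Nat.card (zpowers (pt s x i)) = p := by rw [← J_one, hcard i 1 hm, pow_one]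
    have h1 : zpowers e = zpowers (pt s x i) := by
      refine eq_of_le_of_card_ge (zpowers_le.2 he) ?_
      rw [hci, Nat.card_zpowers]
      have hd : orderOf e ∣ p := by
        rw [← hci]; exact Subgroup.orderOf_dvd_natCard _ he
      rcases hp.eq_one_or_self_of_dvd _ hd with h | h
      · exact absurd (orderOf_eq_one_iff.1 h) he1
      · rw [h]
    obtain ⟨k, hk⟩ : pt s x i ∈ zpowers e := h1 ▸ mem_zpowers _
    exact hk ▸ hc.zpow_right k
  -- elements of commutative intervals factor
  have split : ∀ (i : ℤ) (l : ℕ) (u : G), l ≤ r → u ∈ J s x i 1 ⊔ J s x (i + 1) l →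
      ∃ e ∈ zpowers (pt s x i), ∃ v ∈ J s x (i + 1) l, e * v = u := by
    intro i l u hl hu
    have hn : J s x (i + 1) l ≤ normalizer (J s x i 1 : Set G) := by
      refine le_trans (fun v hv => ?_) (centralizer_le_normalizer _)
      rw [J_one, mem_centralizer_iff]
      rintro c ⟨k, rfl⟩
      exact ((comm_mem i (i + 1) l (fun j h1 h2 => hC _ _ (by omega) (by omega)) v hv).zpow_left k).eq
    rw [← SetLike.mem_coe, coe_mul_of_right_le_normalizer_left _ _ hn] at hu
    obtain ⟨e, he, v, hv, rfl⟩ := Set.mem_mul.1 hu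
    exact ⟨e, by rw [← J_one]; exact he, v, hv, rfl⟩
  have hlow : m ≤ a + r + 1 := by
    by_contra hlt
    set z := pt s x ((a : ℤ) + r + 1) with hz
    -- `z` fixes `w`
    have hzA : z * pt s x ((r : ℤ) + 1) * z⁻¹ = pt s x ((r : ℤ) + 1) := by
      rw [(hC ((a : ℤ) + r + 1) ((r : ℤ) + 1) (by omega) (by omega)).eq, mul_inv_cancel_right]
    have hu : (pt s x 0)⁻¹ * (z * pt s x 0 * z⁻¹) ∈ J s x 1 (a + r) := by
      have hN := normal_interval (l := a + r + 1) (i := 0) (i' := 0) hp hcard (by omega) le_rfl (by omega)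
      have hN' := normal_interval (l := a + r + 1) (i := 0) (i' := 1) hp hcard (by omega) (by omega) (by omega)
      have h1 : (pt s x 0)⁻¹ * (z * pt s x 0 * z⁻¹) ∈ J s x 0 (a + r + 1) :=
        mul_mem (inv_mem (pt_mem le_rfl (by omega)))
          ((mem_normalizer_iff.1 (hN (pt_mem (by omega) (by omega))) _).1 (pt_mem le_rfl (by omega)))
      have h2 : (pt s x 0)⁻¹ * (z * pt s x 0 * z⁻¹) ∈ J s x 1 (a + r + 1) := by
        have h3 : (pt s x 0)⁻¹ * z * pt s x 0 ∈ J s x 1 (a + r + 1) := by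
          have := (mem_normalizer_iff.1 (inv_mem (hN' (pt_mem (i := 0) (j := 0) le_rfl (by omega)))) z).1
            (pt_mem (by omega) (by omega))
          simpa using this
        have h4 := mul_mem h3 (inv_mem (pt_mem (s := s) (x := x) (i := 1) (l := a + r + 1)
          (j := (a : ℤ) + r + 1) (by omega) (by omega)))
        simpa [mul_assoc, hz] using h4
      have hinf : J s x 0 (a + r + 1) ⊓ J s x 1 (a + r + 1) = J s x 1 (a + r) := by
        refine (eq_of_le_of_card_ge (le_inf (J_mono (by omega) (by omega)) (J_mono le_rfl (by omega))) ?_).symm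
        rw [hcard 1 (a + r) (by omega)]
        obtain ⟨j, hj, hjc⟩ := (Nat.dvd_prime_pow hp).1 (hcard 0 (a + r + 1) (by omega) ▸
          card_dvd_of_le (inf_le_left (a := J s x 0 (a + r + 1)) (b := J s x 1 (a + r + 1))))
        rw [hjc]
        refine Nat.pow_le_pow_right hp.pos ?_
        by_contra hlt'
        have h4 := eq_of_le_of_card_ge (inf_le_left (a := J s x 0 (a + r + 1)) (b := J s x 1 (a + r + 1))) (by
          rw [hjc, hcard 0 (a + r + 1) (by omega)]; exact Nat.pow_le_pow_right hp.pos (by omega))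
        have h5 : J s x 0 (a + r + 2) ≤ J s x 1 (a + r + 1) := by
          rw [← J_sup (s := s) (x := x) (i := 0) (i' := 1) (l := a + r + 1) (l' := a + r + 1) (L := a + r + 2)
            (by omega) (by omega) (by omega) (by omega)]
          exact sup_le (inf_eq_left.1 h4) le_rfl
        have h6 := card_le_of_le h5
        rw [hcard 0 (a + r + 2) (by omega), hcard 1 (a + r + 1) (by omega)] at h6
        have := (Nat.pow_le_pow_iff_right hp.one_lt).1 h6
        omega
      exact hinf ▸ mem_inf.2 ⟨h1, h2⟩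
    have hcu : Commute (pt s x ((r : ℤ) + 1)) ((pt s x 0)⁻¹ * (z * pt s x 0 * z⁻¹)) :=
      comm_mem _ 1 (a + r) (fun j h1 h2 => hC _ _ (by omega) (by omega)) _ hu
    have hzw := conj_comm hcu hzA (mul_inv_cancel_left (pt s x 0) (z * pt s x 0 * z⁻¹)).symm
    rw [← hw] at hzw
    -- split off the leading part
    have hmem : w ∈ J s x a 1 ⊔ J s x ((a : ℤ) + 1) (r - a) := by
      rw [J_sup (L := r + 1 - a) (by omega) (by omega) (by omega) (by omega)]; exact hwa
    obtain ⟨e, he, v, hv, hev⟩ := split _ (r - a) w (by omega) hmem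
    have hzv : Commute z v := comm_mem _ _ _ (fun j h1 h2 => hC _ _ (by omega) (by omega)) v hv
    have hzwc : Commute z w := mul_inv_eq_iff_eq_mul.1 hzw
    have hze : Commute z e := by
      have := hzwc.mul_right hzv.inv_right
      rwa [← hev, mul_inv_cancel_right] at this
    have he1 : e ≠ 1 := fun h => hwa' (by rw [← hev, h, one_mul]; exact hv)
    have hfin := gen _ e z he he1 hze
    refine hnc ?_
    have := commute_of_shift (k := -(a : ℤ)) hfin.symm
    rwa [show (a : ℤ) + -(a : ℤ) = 0 by omega, show (a : ℤ) + r + 1 + -(a : ℤ) = (r : ℤ) + 1 by omega] at this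
  have hhigh : m + b ≤ 2 * r + 2 := by
    by_contra hlt
    set d : ℤ := (b : ℤ) - r - 1 with hd
    set z := pt s x d with hz
    set L := 2 * r + 1 - b with hL
    have hzX : z * pt s x 0 * z⁻¹ = pt s x 0 := by
      rw [(hC d 0 (by omega) (by omega)).eq, mul_inv_cancel_right]
    have hu : (pt s x ((r : ℤ) + 1))⁻¹ * (z * pt s x ((r : ℤ) + 1) * z⁻¹) ∈ J s x (d + 1) L := by
      set A := pt s x ((r : ℤ) + 1) with hA
      have hN := normal_interval (l := L + 1) (i := d) (i' := d + 1) hp hcard (by omega) (by omega) (by omega)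
      have hN' := normal_interval (l := L + 1) (i := d) (i' := d) hp hcard (by omega) (by omega) (by omega)
      have h1 : A⁻¹ * (z * A * z⁻¹) ∈ J s x (d + 1) (L + 1) :=
        mul_mem (inv_mem (pt_mem (by omega) (by omega)))
          ((mem_normalizer_iff.1 (hN (pt_mem le_rfl (by omega))) _).1 (pt_mem (by omega) (by omega)))
      have h2 : A⁻¹ * (z * A * z⁻¹) ∈ J s x d (L + 1) := by
        have h3 : A⁻¹ * z * A ∈ J s x d (L + 1) := by
          have := (mem_normalizer_iff.1 (inv_mem (hN' (pt_mem (j := (r : ℤ) + 1) (by omega) (by omega)))) z).1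
            (pt_mem le_rfl (by omega))
          simpa using this
        have h4 := mul_mem h3 (inv_mem (pt_mem (s := s) (x := x) (i := d) (l := L + 1) (j := d) le_rfl (by omega)))
        simpa [mul_assoc, hz] using h4
      have hinf : J s x d (L + 1) ⊓ J s x (d + 1) (L + 1) = J s x (d + 1) L := by
        refine (eq_of_le_of_card_ge (le_inf (J_mono (by omega) (by omega)) (J_mono le_rfl (by omega))) ?_).symm
        rw [hcard (d + 1) L (by omega)]
        obtain ⟨j, hj, hjc⟩ := (Nat.dvd_prime_pow hp).1 (hcard d (L + 1) (by omega) ▸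
          card_dvd_of_le (inf_le_left (a := J s x d (L + 1)) (b := J s x (d + 1) (L + 1))))
        rw [hjc]
        refine Nat.pow_le_pow_right hp.pos ?_
        by_contra hlt'
        have h4 := eq_of_le_of_card_ge (inf_le_left (a := J s x d (L + 1)) (b := J s x (d + 1) (L + 1))) (by
          rw [hjc, hcard d (L + 1) (by omega)]; exact Nat.pow_le_pow_right hp.pos (by omega))
        have h5 : J s x d (L + 2) ≤ J s x (d + 1) (L + 1) := by
          rw [← J_sup (s := s) (x := x) (i := d) (i' := d + 1) (l := L + 1) (l' := L + 1) (L := L + 2)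
            (by omega) (by omega) (by omega) (by omega)]
          exact sup_le (inf_eq_left.1 h4) le_rfl
        have h6 := card_le_of_le h5
        rw [hcard d (L + 2) (by omega), hcard (d + 1) (L + 1) (by omega)] at h6
        have := (Nat.pow_le_pow_iff_right hp.one_lt).1 h6
        omega
      exact hinf ▸ mem_inf.2 ⟨h2, h1⟩
    have hcu : Commute (pt s x 0) ((pt s x ((r : ℤ) + 1))⁻¹ * (z * pt s x ((r : ℤ) + 1) * z⁻¹)) :=
      comm_mem _ _ _ (fun j h1 h2 => hC _ _ (by omega) (by omega)) _ hu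
    have hzw := conj_comm hcu hzX
      (mul_inv_cancel_left (pt s x ((r : ℤ) + 1)) (z * pt s x ((r : ℤ) + 1) * z⁻¹)).symm
    have hzwc : Commute z w := by
      have h2 : Commute z w⁻¹ := by
        rw [hw, commutatorElement_inv]; exact mul_inv_eq_iff_eq_mul.1 hzw
      simpa using h2.inv_right
    have hsum : J s x 1 (b - 1) ⊔ J s x b 1 = J s x 1 b :=
      J_sup (L := b) (by omega) (by omega) (by omega) (by omega)
    have hn : J s x b 1 ≤ normalizer (J s x 1 (b - 1) : Set G) := by
      refine le_trans ?_ (centralizer_le_normalizer _)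
      rw [J_one, zpowers_le, mem_centralizer_iff]
      exact fun c hc => (comm_mem b 1 (b - 1) (fun j h1 h2 => hC _ _ (by omega) (by omega)) c hc).symm.eq
    have hmem : w ∈ ((J s x 1 (b - 1) ⊔ J s x b 1 : Subgroup G) : Set G) := by rw [hsum]; exact hwb
    rw [coe_mul_of_right_le_normalizer_left _ _ hn] at hmem
    obtain ⟨v, hv, e, he, hev⟩ := Set.mem_mul.1 hmem
    have hzv : Commute z v := comm_mem _ _ _ (fun j h1 h2 => hC _ _ (by omega) (by omega)) v hv
    have hze : Commute z e := by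
      have := hzv.inv_right.mul_right hzwc
      rwa [← hev, inv_mul_cancel_left] at this
    have he1 : e ≠ 1 := fun h => hwb' (by rw [← hev, h, mul_one]; exact hv)
    have hfin := gen _ e z (by rw [← J_one]; exact he) he1 hze
    refine hnc ?_
    have := commute_of_shift (k := -d) hfin
    rwa [show d + -d = 0 by omega, show (b : ℤ) + -d = (r : ℤ) + 1 by omega] at this
  have hab : a ≤ b := by
    by_contra hlt
    have h1 : w ∈ J s x 1 (a - 1) := J_mono (s := s) (x := x) (i := 1) (i' := 1) (l := a - 1) (l' := b) le_rfl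
      (by omega) hwb
    have hsup : J s x 1 (a - 1) ⊔ J s x a (r + 1 - a) = J s x 1 r :=
      J_sup (L := r) (by omega) (by omega) (by omega) (by omega)
    have hn : J s x 1 (a - 1) ≤ normalizer (J s x a (r + 1 - a) : Set G) := by
      refine le_trans (fun u hu => ?_) (centralizer_le_normalizer _)
      rw [mem_centralizer_iff]
      intro c hc
      induction hu using Subgroup.closure_induction with
      | mem u hu =>
        obtain ⟨j, ⟨hj1, hj2⟩, rfl⟩ := hu
        exact ((comm_mem j a (r + 1 - a) (fun k h1 h2 => hC _ _ (by omega) (by omega)) c hc).symm).eq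
      | one => simp
      | mul u v _ _ ihu ihv => rw [← mul_assoc, ihu, mul_assoc, ihv, mul_assoc]
      | inv u _ ih => exact (Commute.inv_right (show Commute c u from ih)).eq
    have h2 := PLocal.card_sup_mul_card_inf hn
    rw [hsup, hcard 1 r (by omega), hcard 1 (a - 1) (by omega), hcard (a : ℤ) (r + 1 - a) (by omega), ← pow_add,
      show a - 1 + (r + 1 - a) = r by omega] at h2
    have h3 : Nat.card ↥(J s x 1 (a - 1) ⊓ J s x a (r + 1 - a)) = 1 :=
      Nat.eq_of_mul_eq_mul_left (pow_pos hp.pos r) (h2.trans (mul_one _).symm)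
    have h4 : w ∈ J s x 1 (a - 1) ⊓ J s x a (r + 1 - a) := mem_inf.2 ⟨h1, hwa⟩
    rw [eq_bot_of_card_eq _ h3, mem_bot] at h4
    exact hw1 h4
  exact ⟨hr2, hmid, hnc, a, b, ha1, hab, hbr, hlow, hhigh, hwa, hwb⟩

theorem orbit_bound {m n : ℕ} (hp : p.Prime) (hm : 1 ≤ m) (hn : 1 ≤ n)
    (hcard : ∀ i l, l ≤ m → Nat.card (J s x i l) = p ^ l)
    (hcen : ∀ j : ℤ, 0 ≤ j → j < m → ∃ k : ℤ, 0 ≤ k ∧ k < m + n ∧ ¬ Commute (pt s x j) (pt s x k)) :
    m ≤ 3 * n ∧ m ≠ 3 * n - 1 := by
  obtain ⟨r, -, h | ⟨-, hmid, -, a, b, -, hab, -, hlow, hhigh, -, -⟩⟩ := orbit_structure hp hm hcard hcen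
  · omega
  · omega

end Cfsg.Agent.FGS4.ShiftChain
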